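import Groth.Agent.Sga2lef.H151.TwLoc
import Groth.Agent.Pi1C.FormSys

/-!
# The graded module of twisted sections is closed

`closed`: `MG D G` is the module of sections of its associated sheaf on the punctured cone, for `G` quasi-coherent.
-/

set_option autoImplicit false
universe u
open AlgebraicGeometry CategoryTheory
open Groth.Agent.VarietyB.ProjGlue
open scoped DirectSum

namespace Groth.Agent.Sga2lef.H151.TwMod

open Groth.Agent.Pi1C Groth.Agent.Pi1C.TwistSec Groth.Agent.Pi1C.GrSec
open Groth.Agent.CohqB (QC2.Loc)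
open Groth.Agent.FormalA.CechSub Groth.Agent.FormalA.CechLC Groth.Agent.FormalA

variable {X : Scheme.{u}} {r : ℕ} (D : CoordData X (Fin (r + 1))) {k : Type u} [Field k]
  (p : X ⟶ Spec (CommRingCat.of k)) (G : X.Modules)
  (hU : ∀ i, IsAffineOpen (D.U i)) (hb : ∀ i j, X.basicOpen (D.f i j) = D.U i ⊓ D.U j)
  (hG : ∀ V : X.Opens, IsAffineOpen V → QC2.Loc G V)

theorem comp_x_pow_self_smul (n : ℕ) (b : ℤ) (i : Fin (r + 1)) (z : MG D G) :
    comp D G b i (Cone.x D p i ^ n • z) = comp D G (b - n) i z := by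
  rw [comp_x_pow_smul, D.f_self, one_pow, one_smul]

include hU hb hG in
theorem exists_x_pow_smul_eq_zero (i : Fin (r + 1)) (z : MG D G)
    (h : ∀ a, comp D G a i z = 0) : ∃ N : ℕ, Cone.x D p i ^ N • z = 0 := by
  obtain ⟨N, hN⟩ := exists_pow_smul_eq_zero_of_comp D G hU hb hG i z h
  exact ⟨N, by rw [x_pow_smul, hN]⟩

include hU hb hG in
theorem exists_x_pow_smul_eq (i : Fin (r + 1)) (z w : MG D G)
    (h : ∀ a, comp D G a i z = comp D G a i w) : ∃ N : ℕ, Cone.x D p i ^ N • z = Cone.x D p i ^ N • w := by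
  obtain ⟨N, hN⟩ := exists_x_pow_smul_eq_zero D p G hU hb hG i (z - w) (fun a => by
    rw [map_sub, h, sub_self])
  exact ⟨N, by rwa [smul_sub, sub_eq_zero] at hN⟩

include hU hb hG in
theorem closed : FormSys.Closed (Cone.x D p) (MG D G) where
  inj z hz := by
    apply ext_comp
    intro b i
    have h := congrFun hz i
    rw [ε_apply] at h
    obtain ⟨_, ⟨n, rfl⟩, hn⟩ := (LocSub.mkLinearMap_eq_zero_iff z).mp h
    have h2 := congrArg (comp D G (b + n) i) hn
    simp only at h2
    rw [comp_x_pow_self_smul, add_sub_cancel_right] at h2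
    exact h2
  glue x hx := by
    classical
    choose n s hs using fun i => LocSub.exists_eq_mk (x i)
    choose a ha using fun i => (s i).2
    let e : ∀ (_ : ℤ) (i : Fin (r + 1)), Γ(G, D.U i) := fun b i => comp D G (b + a i) i (n i)
    have he : ∀ b, e b ∈ GSec D G b := by
      intro b i j
      have h := congrFun (congrFun hx i) j
      rw [d0_apply, hs i, hs j, LocSub.res_mk, LocSub.res_mk] at h
      have h' := sub_eq_zero.mp (show _ - _ = (0 : LocalizedModule (PS (Cone.x D p) i ⊔
        PS (Cone.x D p) j) (MG D G)) from h)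
      obtain ⟨w, hw⟩ := LocalizedModule.mk_eq.mp h'
      simp only [Submonoid.smul_def] at hw
      obtain ⟨_, ⟨α, rfl⟩, _, ⟨β, rfl⟩, hw'⟩ := Submonoid.mem_sup.mp w.2
      rw [← ha i, ← ha j, ← hw'] at hw
      have h1 := congrArg (comp D G (b + a i + a j + α + β) i) hw
      simp only [mul_smul, comp_x_pow_smul, D.f_self, one_pow, one_smul] at h1
      have e1 : b + a i + a j + α + β - α - β - a i = b + a j := by ring
      have e2 : b + a i + a j + α + β - α - β - a j = b + a i := by ring
      rw [e1, e2] at h1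
      -- restrict to the overlap
      have h2 := congrArg (gL D G i j) h1
      simp only [gL_smul, map_pow] at h2
      rw [← u_val] at h2
      have h3 : ∀ (c : ℕ) (z z' : Γ(G, D.U i ⊓ D.U j)),
          (u D i j : Γ(X, D.U i ⊓ D.U j)) ^ c • z = (u D i j : Γ(X, D.U i ⊓ D.U j)) ^ c • z' →
          z = z' := by
        intro c z z' hz
        have h4 := congrArg (fun t => ((u D i j ^ c)⁻¹ : Γ(X, D.U i ⊓ D.U j)ˣ) • t) hz
        simp only [← Units.val_pow_eq_pow_val, ← Units.smul_def, inv_smul_smul] at h4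
        exact h4
      have h5 := h3 β _ _ h2
      have h6 : gL D G i j (comp D G (b + a j) i (n j)) =
          ((u D i j ^ (b + a j) : Γ(X, D.U i ⊓ D.U j)ˣ) : Γ(X, D.U i ⊓ D.U j)) •
            gR D G i j (comp D G (b + a j) j (n j)) := (n j (b + a j)).2 i j
      rw [h6, zpow_add, Units.val_mul, mul_comm, mul_smul, zpow_natCast,
        Units.val_pow_eq_pow_val] at h5
      exact (h3 (a j) _ _ h5).symm
    choose t ht using fun i => exists_support D G (n i)
    obtain ⟨y, hy⟩ := exists_of_comp D G e he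
      (Finset.univ.biUnion fun i => (t i).image (fun c => c - (a i : ℤ))) (by
        intro b hb'
        funext i
        refine ht i _ (fun hmem => hb' ?_) i
        refine Finset.mem_biUnion.mpr ⟨i, Finset.mem_univ i, Finset.mem_image.mpr ⟨_, hmem, ?_⟩⟩
        ring)
    refine ⟨y, ?_⟩
    funext i
    rw [ε_apply, LocalizedModule.mkLinearMap_apply, hs i]
    obtain ⟨N, hN⟩ := exists_x_pow_smul_eq D p G hU hb hG i (Cone.x D p i ^ a i • y) (n i) (by
      intro b
      rw [comp_x_pow_self_smul, hy]
      change comp D G (b - a i + a i) i (n i) = _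
      rw [sub_add_cancel])
    rw [LocalizedModule.mk_eq]
    refine ⟨⟨Cone.x D p i ^ N, N, rfl⟩, ?_⟩
    simp only [Submonoid.smul_def, one_smul]
    rw [← ha i]
    exact hN

end Groth.Agent.Sga2lef.H151.TwMod
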