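import Groth.Agent.Sga2lef.H151.TwMod
import Groth.Agent.Sga2lef.H103.GrSys
import Groth.Agent.Pi1C.LefC5

/-!
# Gradings

`cA`: the component projections of the cone ring; `grRing`, `grMod`: the structures of `H103.GrSys`.
-/

set_option autoImplicit false
universe u
open AlgebraicGeometry CategoryTheory
open Groth.Agent.VarietyB.ProjGlue
open scoped DirectSum

namespace Groth.Agent.Sga2lef.H151.TwMod

open Groth.Agent.Pi1C Groth.Agent.Pi1C.TwistSec Groth.Agent.Pi1C.GrSec Groth.Agent.Pi1C.GrCone
open Groth.Agent.Sga2lef.H103 (GrSys.Gr GrSys.GrMod GrSys.GrRing)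

section Ring

variable {X : Scheme.{u}} {I : Type} (D : CoordData X I)

/-- The component of degree `a` of the ring of twisted sections. -/
noncomputable def cM (a : ℤ) : GrSec.M D →+ GrSec.M D where
  toFun z := hom D a (z a)
  map_zero' := (hom D a).map_zero
  map_add' z w := (hom D a).map_add (z a) (w a)

theorem cM_apply (a b : ℤ) (i : I) (z : GrSec.M D) :
    (cM D a z b).1 i = if a = b then (z b).1 i else 0 := by
  change (hom D a (z a) b).1 i = _
  rw [hom_apply]
  split_ifs with h
  · subst h
    rfl
  · rfl

theorem cM_cM (a : ℤ) (z : GrSec.M D) : cM D a (cM D a z) = cM D a z := by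
  apply ext_M
  intro b i
  rw [cM_apply, cM_apply]
  split_ifs <;> rfl

theorem cM_cM_ne {a b : ℤ} (h : a ≠ b) (z : GrSec.M D) : cM D a (cM D b z) = 0 := by
  apply ext_M
  intro c i
  rw [cM_apply, cM_apply]
  split_ifs with h1 h2
  · exact absurd (h1.trans h2.symm) h
  · rfl
  · rfl

theorem cM_hom (a : ℤ) (σ : Sec D a) : cM D a (hom D a σ) = hom D a σ := by
  apply ext_M
  intro b i
  rw [cM_apply, hom_apply]
  split_ifs <;> rfl

theorem cM_mul {a b : ℤ} {z w : GrSec.M D} (hz : cM D a z = z) (hw : cM D b w = w) :
    cM D (a + b) (z * w) = z * w := by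
  rw [← hz, ← hw]
  change cM D (a + b) (hom D a (z a) * hom D b (w b)) = hom D a (z a) * hom D b (w b)
  rw [hom_mul_hom, cM_hom]

end Ring

section Cone

variable {X : Scheme.{u}} {r : ℕ} (D : CoordData X (Fin (r + 1))) {k : Type u} [Field k]
  (p : X ⟶ Spec (CommRingCat.of k))

/-- The component projections of the cone ring. -/
noncomputable def cA (e : ℤ) : Cone.R D p →+ Cone.R D p where
  toFun a := (LefC5.exists_comp D p a e).choose
  map_zero' := by
    apply toM_injective D p
    refine (LefC5.exists_comp D p 0 e).choose_spec.trans ?_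
    change cM D e (toM D p 0) = _
    rw [map_zero, map_zero]
  map_add' a b := by
    apply toM_injective D p
    refine (LefC5.exists_comp D p (a + b) e).choose_spec.trans ?_
    refine Eq.trans ?_ ((congrArg₂ (· + ·) (LefC5.exists_comp D p a e).choose_spec.symm
      (LefC5.exists_comp D p b e).choose_spec.symm).trans (map_add (toM D p) _ _).symm)
    change cM D e (toM D p (a + b)) = cM D e (toM D p a) + cM D e (toM D p b)
    rw [map_add, map_add]

theorem toM_cA (e : ℤ) (a : Cone.R D p) : toM D p (cA D p e a) = cM D e (toM D p a) :=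
  (LefC5.exists_comp D p a e).choose_spec

theorem toM_of_cA {e : ℤ} {a : Cone.R D p} (h : cA D p e a = a) :
    cM D e (toM D p a) = toM D p a := by rw [← toM_cA, h]

theorem cA_of_toM {e : ℤ} {a : Cone.R D p} (h : cM D e (toM D p a) = toM D p a) :
    cA D p e a = a := by
  apply toM_injective D p
  rw [toM_cA, h]

theorem grRing : GrSys.GrRing (Cone.x D p) (cA D p) where
  self a z := toM_injective D p (by rw [toM_cA, toM_cA, cM_cM])
  ne a b z h := toM_injective D p (by rw [toM_cA, toM_cA, cM_cM_ne D h, map_zero])
  fin z := by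
    obtain ⟨s, hs⟩ := exists_finset D (toM D p z)
    refine ⟨s, toM_injective D p ?_⟩
    rw [map_sum]
    conv_rhs => rw [hs]
    exact Finset.sum_congr rfl fun a _ => toM_cA D p a z
  smul a b t z ht hz := by
    apply cA_of_toM
    rw [smul_eq_mul, map_mul]
    exact cM_mul D (toM_of_cA D p ht) (toM_of_cA D p hz)
  neg a z ha := toM_injective D p (by
    rw [toM_cA, map_zero]
    change hom D a (toM D p z a) = 0
    rw [toM_apply D p z a ha, map_zero])
  one := by
    apply cA_of_toM
    rw [map_one]
    exact cM_hom D 0 ⟨1, one_mem D⟩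
  deg i := by
    apply cA_of_toM
    rw [toM_x]
    exact cM_hom D 1 _

variable (G : X.Modules)

theorem grMod : GrSys.GrMod (cA D p) (cG D G) where
  self a z := by
    apply ext_comp
    intro b i
    rw [comp_cG, comp_cG]
    split_ifs <;> rfl
  ne a b z h := by
    apply ext_comp
    intro c i
    rw [comp_cG, comp_cG, map_zero]
    split_ifs with h1 h2
    · exact absurd (h1.trans h2.symm) h
    · rfl
    · rfl
  fin z := exists_cG_sum D G z
  smul a b t z ht hz := by
    have h1 : toM D p t = hom D a (toM D p t a) := (toM_of_cA D p ht).symm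
    rw [cG_eq_self_iff] at hz ⊢
    intro c i hc
    rw [cone_smul, h1, comp_hom_smul, hz _ _ (by omega), smul_zero]

end Cone

end Groth.Agent.Sga2lef.H151.TwMod
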