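import Groth.Agent.Sga2lef.H151.TwFac
import Groth.Agent.FormalB.TrKQuot
import Groth.Agent.Pi1C.LefSetup

/-!
# The graded system of a formal module on the hyperplane section

`exists_unitData`: `O / J ^ m` for the ideal sheaf `J` of `x_0 = 0`; `locSys`, `sys`: the systems of `TwSys` and
`H103.GrSys` defined by modules `G n` over `O / J ^ (n + 1)`, locally direct summands of powers of `O / J ^ (n + 1)` on the
charts, with `G (n + 1) / J ^ (n + 1) = G n`.
-/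

set_option autoImplicit false
universe u
open AlgebraicGeometry CategoryTheory
open Groth.Agent.VarietyB.ProjGlue
open scoped DirectSum

namespace Groth.Agent.Sga2lef.H151.TwMod

open Groth.Agent.Pi1C Groth.Agent.Pi1C.TwistSec Groth.Agent.Pi1C.GrSec Groth.Agent.Pi1C.GrCone
open Groth.Agent.CohqB (QC2.Loc)
open Groth.Agent.FormalB (KQuot.IsKQuot TrKQuot.kq TrKQuot.kπ TrKQuot.isKQuot_kπ TrKQuot.isCoh_kq
  TrKQuot.IsKQuot.app_surjective TrKQuot.IsKQuot.app_eq_zero_iff)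

variable {X : Scheme.{u}} {r : ℕ} (D : CoordData X (Fin (r + 1)))

theorem loc_of_isCoh {G : X.Modules} (hG : Coh.IsCoh G) (V : X.Opens) (hV : IsAffineOpen V) :
    QC2.Loc G V :=
  have := hG.1
  CohqB.QC2.loc_of_isQuasicoherent _ hV

section Unit

/-- The section `1` of the structure sheaf. -/
noncomputable def oneS (V : X.Opens) : Γ(Coh.structureModule X, V) := (1 : Γ(X, V))

theorem smul_oneS (V : X.Opens) (a : Γ(X, V)) :
    a • oneS V = (show Γ(Coh.structureModule X, V) from a) := by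
  change a * 1 = a
  rw [mul_one]

theorem gres_oneS {V W : X.Opens} (h : V ≤ W) : gres (Coh.structureModule X) h (oneS W) = oneS V := by
  change (X.presheaf.map (homOfLE h).op).hom 1 = 1
  rw [map_one]

theorem mem_smul_top_iff {R N : Type*} [CommRing R] [AddCommGroup N] [Module R N] (a : R) (x : N) :
    x ∈ (Ideal.span {a} • (⊤ : Submodule R N)) ↔ ∃ y, x = a • y := by
  rw [Submodule.ideal_span_singleton_smul, Submodule.mem_smul_pointwise_iff_exists]
  exact ⟨fun ⟨y, _, hy⟩ => ⟨y, hy.symm⟩, fun ⟨y, hy⟩ => ⟨y, trivial, hy.symm⟩⟩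

/-- The quotient `O / J ^ m`, `J` the ideal sheaf of `x_0 = 0`. -/
theorem exists_unitData (hU : ∀ i, IsAffineOpen (D.U i)) [∀ i, QuasiCompact (D.U i).ι]
    (hO : Coh.IsCoh (Coh.structureModule X)) (m : ℕ) :
    ∃ (O : X.Modules) (one : ∀ i, Γ(O, D.U i)), Coh.IsCoh O ∧ UnitData D m O one := by
  let K := LefSetup.hyper D hU 0 ^ m
  have hK := TrKQuot.isKQuot_kπ K hO.1
  have hKi : ∀ i, K.ideal ⟨D.U i, hU i⟩ = Ideal.span {D.f i 0 ^ m} := LefSetup.hyper_pow_ideal D hU 0 m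
  have hcoh : Coh.IsCoh (TrKQuot.kq K (Coh.structureModule X)) := TrKQuot.isCoh_kq K hO
  refine ⟨TrKQuot.kq K (Coh.structureModule X),
    fun i => (TrKQuot.kπ K (Coh.structureModule X)).app (D.U i) (oneS (D.U i)), hcoh, ?_, ?_, ?_, ?_, ?_⟩
  · exact loc_of_isCoh hcoh
  · intro i j
    rw [zpow_zero, Units.val_one, one_smul]
    change CohqB.QC2.res _ _ _ = CohqB.QC2.res _ _ _
    rw [← CohqB.QC2.app_res, ← CohqB.QC2.app_res]
    have h1 := gres_oneS (X := X) (inf_le_left : D.U i ⊓ D.U j ≤ D.U i)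
    have h2 := gres_oneS (X := X) (inf_le_right : D.U i ⊓ D.U j ≤ D.U j)
    exact congrArg _ (h1.trans h2.symm)
  · intro i e
    obtain ⟨a, ha⟩ := TrKQuot.IsKQuot.app_surjective hK hO.1 (hU i) e
    refine ⟨a, ?_⟩
    rw [← Scheme.Modules.Hom.app_smul, smul_oneS]
    exact ha
  · intro i a ha
    rw [← Scheme.Modules.Hom.app_smul] at ha
    have h1 := (TrKQuot.IsKQuot.app_eq_zero_iff hK hO.1 ⟨D.U i, hU i⟩ _).mp ha
    rw [hKi, mem_smul_top_iff] at h1
    obtain ⟨y, hy⟩ := h1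
    rw [smul_oneS] at hy
    exact ⟨y, hy⟩
  · intro i
    exact hK.killed ⟨D.U i, hU i⟩ _ (by rw [hKi]; exact Ideal.mem_span_singleton_self _) _

end Unit

section Fac

/-- The sections of `O` on a chart. -/
noncomputable def UnitData.equiv {m : ℕ} {O : X.Modules} {one : ∀ i, Γ(O, D.U i)}
    (h : UnitData D m O one) (i : Fin (r + 1)) :
    (Γ(X, D.U i) ⧸ Ideal.span {D.f i 0 ^ m}) ≃ₗ[Γ(X, D.U i)] Γ(O, D.U i) :=
  LinearEquiv.ofBijective (Submodule.liftQ _ (LinearMap.toSpanSingleton Γ(X, D.U i) _ (one i)) (by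
      rw [Ideal.span, Submodule.span_le]
      rintro _ rfl
      exact h.tors i))
    ⟨by
      rw [← LinearMap.ker_eq_bot, Submodule.ker_liftQ_eq_bot]
      intro a ha
      obtain ⟨b, rfl⟩ := h.ann i a ha
      exact Ideal.mul_mem_right _ _ (Ideal.mem_span_singleton_self _),
     fun e => by
      obtain ⟨a, ha⟩ := h.gen i e
      exact ⟨Submodule.Quotient.mk a, ha⟩⟩

/-- `Γ(G, U i)` is a direct summand of a power of `Γ(X, U i) / (x_0 / x_i) ^ m`. -/
def ChartProj (m : ℕ) (G : X.Modules) : Prop :=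
  ∀ i, ∃ (q : ℕ) (φ : Fin q → (Γ(G, D.U i) →ₗ[Γ(X, D.U i)] Γ(X, D.U i) ⧸ Ideal.span {D.f i 0 ^ m}))
      (ψ : Fin q → ((Γ(X, D.U i) ⧸ Ideal.span {D.f i 0 ^ m}) →ₗ[Γ(X, D.U i)] Γ(G, D.U i))),
      ∀ x, x = ∑ j, ψ j (φ j x)

variable {D} in
theorem ChartProj.fac {m : ℕ} {G : X.Modules} (h : ChartProj D m G) {O : X.Modules}
    {one : ∀ i, Γ(O, D.U i)} (hu : UnitData D m O one) (i : Fin (r + 1)) :
    ∃ (q : ℕ) (φ : Fin q → (Γ(G, D.U i) →ₗ[Γ(X, D.U i)] Γ(O, D.U i)))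
      (ψ : Fin q → (Γ(O, D.U i) →ₗ[Γ(X, D.U i)] Γ(G, D.U i))), ∀ x, x = ∑ j, ψ j (φ j x) := by
  obtain ⟨q, φ, ψ, h⟩ := h i
  refine ⟨q, fun j => (hu.equiv D i).toLinearMap ∘ₗ φ j,
    fun j => ψ j ∘ₗ (hu.equiv D i).symm.toLinearMap, fun x => ?_⟩
  conv_lhs => rw [h x]
  refine Finset.sum_congr rfl fun j _ => ?_
  simp only [LinearMap.comp_apply, LinearEquiv.coe_coe, LinearEquiv.symm_apply_apply]

/-- Construction from a finite projective module over the quotient ring. -/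
theorem ChartProj.of_projective {m : ℕ} {G : X.Modules}
    (h : ∀ i, ∃ (_ : Module (Γ(X, D.U i) ⧸ Ideal.span {D.f i 0 ^ m}) Γ(G, D.U i))
      (_ : IsScalarTower Γ(X, D.U i) (Γ(X, D.U i) ⧸ Ideal.span {D.f i 0 ^ m}) Γ(G, D.U i)),
      Module.Projective (Γ(X, D.U i) ⧸ Ideal.span {D.f i 0 ^ m}) Γ(G, D.U i) ∧
      Module.Finite (Γ(X, D.U i) ⧸ Ideal.span {D.f i 0 ^ m}) Γ(G, D.U i)) : ChartProj D m G := by
  intro i
  obtain ⟨_, _, hp, hf⟩ := h i
  let B := Γ(X, D.U i) ⧸ Ideal.span {D.f i 0 ^ m}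
  obtain ⟨q, f, hf⟩ := Module.Finite.exists_fin' B Γ(G, D.U i)
  obtain ⟨g, hg⟩ := Module.projective_lifting_property f LinearMap.id hf
  refine ⟨q, fun j => ((LinearMap.proj j ∘ₗ g).restrictScalars Γ(X, D.U i)),
    fun j => ((f ∘ₗ LinearMap.single B (fun _ => B) j).restrictScalars Γ(X, D.U i)), fun x => ?_⟩
  have h1 : f (g x) = x := congrArg (fun φ => φ x) hg
  conv_lhs => rw [← h1]
  simp only [LinearMap.restrictScalars_apply, LinearMap.comp_apply, LinearMap.proj_apply]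
  rw [← map_sum]
  congr 1
  exact (Finset.univ_sum_single (g x)).symm

end Fac

section Sys

theorem exists_eq_pow_smul {m : ℕ} {G : X.Modules} (h : ChartProj D (m + 1) G)
    (hreg : ∀ i, D.f i 0 ∈ nonZeroDivisors Γ(X, D.U i)) (i : Fin (r + 1)) (e : Γ(G, D.U i))
    (he : D.f i 0 • e = 0) : ∃ e', e = D.f i 0 ^ m • e' := by
  obtain ⟨q, φ, ψ, h⟩ := h i
  have h1 : ∀ j, ∃ c, φ j e = D.f i 0 ^ m • c := by
    intro j
    obtain ⟨b, hb⟩ := Ideal.Quotient.mk_surjective (φ j e)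
    have h2 : D.f i 0 • φ j e = 0 := by rw [← map_smul, he, map_zero]
    rw [← hb] at h2
    have h3 : D.f i 0 * b ∈ Ideal.span {D.f i 0 ^ (m + 1)} :=
      (Ideal.Quotient.eq_zero_iff_mem).mp h2
    obtain ⟨c, hc⟩ := Ideal.mem_span_singleton.mp h3
    have h4 : b = D.f i 0 ^ m * c := by
      have h5 : D.f i 0 * (b - D.f i 0 ^ m * c) = 0 := by
        rw [mul_sub, hc, pow_succ]
        ring
      have h6 := (mem_nonZeroDivisors_iff_right.mp (hreg i)) _ ((mul_comm _ _).trans h5)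
      exact sub_eq_zero.mp h6
    refine ⟨Ideal.Quotient.mk _ c, ?_⟩
    rw [← hb, h4]
    rfl
  choose c hc using h1
  refine ⟨∑ j, ψ j (c j), ?_⟩
  conv_lhs => rw [h e]
  rw [Finset.smul_sum]
  exact Finset.sum_congr rfl fun j _ => by rw [hc, map_smul]

variable (hU : ∀ i, IsAffineOpen (D.U i)) [∀ i, QuasiCompact (D.U i).ι]

include hU in
theorem locSys {G : ℕ → X.Modules} {t : ∀ n, G (n + 1) ⟶ G n} (hcoh : ∀ n, Coh.IsCoh (G n))
    (hkill : ∀ n, ClSub.KilledByIdeal (LefSetup.hyper D hU 0 ^ (n + 1)) (G n))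
    (hkq : ∀ n, KQuot.IsKQuot (LefSetup.hyper D hU 0 ^ (n + 1)) (t n))
    (hreg : ∀ i, D.f i 0 ∈ nonZeroDivisors Γ(X, D.U i)) (hproj : ∀ n, ChartProj D (n + 1) (G n)) :
    LocSys D G t where
  loc n := loc_of_isCoh (hcoh n)
  tors n i e := hkill n ⟨D.U i, hU i⟩ _
    (by rw [LefSetup.hyper_pow_ideal]; exact Ideal.mem_span_singleton_self _) e
  surj n i := TrKQuot.IsKQuot.app_surjective (hkq n) (hcoh (n + 1)).1 (hU i)
  ker n i e he := by
    have h1 := (TrKQuot.IsKQuot.app_eq_zero_iff (hkq n) (hcoh (n + 1)).1 ⟨D.U i, hU i⟩ e).mp he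
    rwa [LefSetup.hyper_pow_ideal, mem_smul_top_iff] at h1
  ftors n i e he := exists_eq_pow_smul D (hproj n) hreg i e he

variable {k : Type u} [Field k] (p : X ⟶ Spec (CommRingCat.of k))
  (hb : ∀ i j, X.basicOpen (D.f i j) = D.U i ⊓ D.U j)
  (hs : ∀ i, Function.Surjective (D.hom p i))

include hb hs in
/-- The graded system of `H103.GrSys`. -/
theorem sys [IsLocallyNoetherian X] {G : ℕ → X.Modules} {t : ∀ n, G (n + 1) ⟶ G n}
    (hcoh : ∀ n, Coh.IsCoh (G n))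
    (hkill : ∀ n, ClSub.KilledByIdeal (LefSetup.hyper D hU 0 ^ (n + 1)) (G n))
    (hkq : ∀ n, KQuot.IsKQuot (LefSetup.hyper D hU 0 ^ (n + 1)) (t n))
    (hreg : ∀ i, D.f i 0 ∈ nonZeroDivisors Γ(X, D.U i)) (hproj : ∀ n, ChartProj D (n + 1) (G n))
    {O : ℕ → X.Modules} {one : ∀ n i, Γ(O n, D.U i)} (hO : ∀ n, Coh.IsCoh (O n))
    (hu : ∀ n, UnitData D (n + 1) (O n) (one n)) :
    H103.GrSys.Sys (Cone.x D p 0) (Cone.x D p) (cA D p) (C := fun n => MG D (O n))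
      (M := fun n => MG D (G n)) (fun n => mapR D p (t n)) (fun n => (hu n).map p)
      (fun n => cG D (O n)) (fun n => cG D (G n)) where
  sysM := modSys D p hU hb (locSys D hU hcoh hkill hkq hreg hproj)
  grM n := grMod D p (G n)
  πcM n a z := mapG_cG D (t n) a z
  grC n := grMod D p (O n)
  αc n e a := (hu n).map_cA p e a
  surjα n := (hu n).LS p hU hb hs
  kerα n := (hu n).LK p hU hb hs
  torsC n x := (hu n).tors_all p x
  closedC n := closed D p (O n) hU hb (hu n).loc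
  facM n i := exists_fac D p hU hb hs (hcoh n) (hO n) (hu n) ((hproj n).fac (hu n)) i

end Sys

end Groth.Agent.Sga2lef.H151.TwMod
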