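import Groth.Agent.Sga2lef.H151.TwClosed
import Groth.Agent.CohqB.HomSheafCoh

/-!
# Twisted sections of the internal Hom act on graded modules

`homR D p τ : MG D G →ₗ MG D G'` for a twisted section `τ` of `homSheaf G G'`; `exists_homR`: every linear map between
the sections on a chart extends to such a map, up to a shift.
-/

set_option autoImplicit false
universe u
open AlgebraicGeometry CategoryTheory
open Groth.Agent.VarietyB.ProjGlue
open scoped DirectSum

namespace Groth.Agent.Sga2lef.H151.TwMod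

open Groth.Agent.Pi1C Groth.Agent.Pi1C.TwistSec Groth.Agent.Pi1C.GrSec
open Groth.Agent.CohqB (QC2.Loc HomSheaf.homSheaf HomSheaf.comp_map HomSheaf.comp_res
  HomSheaf.comp_self_smul)

section

variable {X : Scheme.{u}} {I : Type} (D : CoordData X I) {G G' : X.Modules}

/-- The linear map on the sections over `U i`. -/
noncomputable def hc (i : I) (τ : Γ(HomSheaf.homSheaf G G', D.U i)) :
    Γ(G, D.U i) →ₗ[Γ(X, D.U i)] Γ(G', D.U i) :=
  CohqB.HomSheaf.comp τ (D.U i) le_rfl

theorem hc_mem {δ a : ℤ} {τ : ∀ i, Γ(HomSheaf.homSheaf G G', D.U i)}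
    (hτ : τ ∈ GSec D (HomSheaf.homSheaf G G') δ) {e : ∀ i, Γ(G, D.U i)} (he : e ∈ GSec D G a) :
    (fun i => hc D i (τ i) (e i)) ∈ GSec D G' (a + δ) := by
  intro i j
  let c (t : Γ(HomSheaf.homSheaf G G', D.U i ⊓ D.U j)) :=
    CohqB.HomSheaf.comp t (D.U i ⊓ D.U j) le_rfl
  have h1 : gL D G' i j (hc D i (τ i) (e i)) =
      c (gL D (HomSheaf.homSheaf G G') i j (τ i)) (gL D G i j (e i)) :=
    (HomSheaf.comp_map (τ i) le_rfl inf_le_left (e i)).symm
  have h2 : gR D G' i j (hc D j (τ j) (e j)) =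
      c (gR D (HomSheaf.homSheaf G G') i j (τ j)) (gR D G i j (e j)) :=
    (HomSheaf.comp_map (τ j) le_rfl inf_le_right (e j)).symm
  change gL D G' i j (hc D i (τ i) (e i)) = _ • gR D G' i j (hc D j (τ j) (e j))
  rw [h1, h2, hτ i j, he i j]
  change CohqB.HomSheaf.comp _ (D.U i ⊓ D.U j) le_rfl _ = _
  rw [HomSheaf.comp_self_smul, LinearMap.smul_apply, map_smul, smul_smul, zpow_add, Units.val_mul]
  congr 1
  ring

/-- The map on twisted sections. -/
noncomputable def secHom {δ : ℤ} (τ : GSec D (HomSheaf.homSheaf G G') δ) (a : ℤ) :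
    GSec D G a →+ GSec D G' (a + δ) where
  toFun σ := ⟨fun i => hc D i (τ.1 i) (σ.1 i), hc_mem D τ.2 σ.2⟩
  map_zero' := Subtype.ext (funext fun _ => map_zero _)
  map_add' σ σ' := Subtype.ext (funext fun i => map_add _ (σ.1 i) (σ'.1 i))

/-- The map on graded modules. -/
noncomputable def homMap {δ : ℤ} (τ : GSec D (HomSheaf.homSheaf G G') δ) : MG D G →+ MG D G' :=
  DirectSum.toAddMonoid fun a => (ghom D G' (a + δ)).comp (secHom D τ a)

theorem homMap_ghom {δ : ℤ} (τ : GSec D (HomSheaf.homSheaf G G') δ) (a : ℤ) (σ : GSec D G a) :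
    homMap D τ (ghom D G a σ) = ghom D G' (a + δ) (secHom D τ a σ) :=
  DirectSum.toAddMonoid_of _ _ _

theorem comp_homMap {δ : ℤ} (τ : GSec D (HomSheaf.homSheaf G G') δ) (b : ℤ) (i : I) (z : MG D G) :
    comp D G' b i (homMap D τ z) = hc D i (τ.1 i) (comp D G (b - δ) i z) := by
  induction z using ginduction_on with
  | h0 => rw [map_zero, map_zero, map_zero, map_zero]
  | h1 a σ =>
    rw [homMap_ghom, comp_ghom, comp_ghom]
    by_cases h : a + δ = b
    · rw [if_pos h, if_pos (by omega)]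
      rfl
    · rw [if_neg h, if_neg (by omega), map_zero]
  | h2 z w hz hw => rw [map_add, map_add, map_add, map_add, hz, hw]

theorem homMap_hom_smul {δ : ℤ} (τ : GSec D (HomSheaf.homSheaf G G') δ) (a : ℤ) (σ : Sec D a)
    (z : MG D G) : homMap D τ (hom D a σ • z) = hom D a σ • homMap D τ z := by
  apply ext_comp
  intro b i
  rw [comp_homMap, comp_hom_smul, comp_hom_smul, comp_homMap, map_smul, sub_right_comm]

/-- The map on graded modules is linear. -/
noncomputable def homLin {δ : ℤ} (τ : GSec D (HomSheaf.homSheaf G G') δ) :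
    MG D G →ₗ[GrSec.M D] MG D G' where
  toFun := homMap D τ
  map_add' := map_add _
  map_smul' a z := by
    rw [RingHom.id_apply]
    induction a using GrSec.induction_on with
    | h0 =>
      exact (congrArg (homMap D τ) (zero_smul (GrSec.M D) z)).trans
        ((map_zero (homMap D τ)).trans (zero_smul (GrSec.M D) (homMap D τ z)).symm)
    | h1 a σ => exact homMap_hom_smul D τ a σ z
    | h2 a b ha hb =>
      exact (congrArg (homMap D τ) (add_smul a b z)).trans
        ((map_add (homMap D τ) _ _).trans ((congrArg₂ (· + ·) ha hb).trans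
          (add_smul a b (homMap D τ z)).symm))

end

section Cone

variable {X : Scheme.{u}} {r : ℕ} (D : CoordData X (Fin (r + 1))) {k : Type u} [Field k]
  (p : X ⟶ Spec (CommRingCat.of k)) {G G' : X.Modules}

/-- The map on graded modules over the cone ring. -/
noncomputable def homR {δ : ℤ} (τ : GSec D (HomSheaf.homSheaf G G') δ) :
    MG D G →ₗ[Cone.R D p] MG D G' where
  toFun := homMap D τ
  map_add' := map_add _
  map_smul' a z := (homLin D τ).map_smul (GrCone.toM D p a) z

theorem comp_homR {δ : ℤ} (τ : GSec D (HomSheaf.homSheaf G G') δ) (b : ℤ) (i : Fin (r + 1))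
    (z : MG D G) : comp D G' b i (homR D p τ z) = hc D i (τ.1 i) (comp D G (b - δ) i z) :=
  comp_homMap D τ b i z

theorem homR_deg {δ : ℤ} (τ : GSec D (HomSheaf.homSheaf G G') δ) (a : ℤ) (z : MG D G)
    (hz : cG D G a z = z) : cG D G' (a + δ) (homR D p τ z) = homR D p τ z := by
  rw [cG_eq_self_iff] at hz ⊢
  intro b i hb
  rw [comp_homR, hz _ _ (by omega), map_zero]

variable (hU : ∀ i, IsAffineOpen (D.U i)) (hb : ∀ i j, X.basicOpen (D.f i j) = D.U i ⊓ D.U j)

include hU hb in
/-- Extension of a linear map on the chart `i`. -/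
theorem exists_homR [IsLocallyNoetherian X] (hG : Coh.IsCoh G) (hG' : Coh.IsCoh G') (i : Fin (r + 1))
    (φ : Γ(G, D.U i) →ₗ[Γ(X, D.U i)] Γ(G', D.U i)) :
    ∃ (N : ℕ) (Φ : MG D G →ₗ[Cone.R D p] MG D G'),
      (∀ a z, cG D G a z = z → cG D G' (a + N) (Φ z) = Φ z) ∧
      ∀ a z, comp D G' (a + N) i (Φ z) = φ (comp D G a i z) := by
  have hH := CohqB.HomSheaf.isCoh_homSheaf hG hG'
  have hL : ∀ V : X.Opens, IsAffineOpen V → QC2.Loc (HomSheaf.homSheaf G G') V := fun V hV =>
    have := hH.1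
    CohqB.QC2.loc_of_isQuasicoherent _ hV
  obtain ⟨N, σ, hσ, h⟩ := exists_gsec D (HomSheaf.homSheaf G G') hU hb hL i
    ((CohqB.HomSheaf.affineEquiv hG.1 (hU i)).symm φ)
  refine ⟨N, homR D p ⟨σ, hσ⟩, fun a z hz => homR_deg D p _ a z hz, fun a z => ?_⟩
  rw [comp_homR, add_sub_cancel_right]
  change hc D i (σ i) _ = _
  rw [h]
  have := CohqB.HomSheaf.comp_affineEquiv_symm hG.1 (hU i) φ
  exact congrArg (fun f => f (comp D G a i z)) this

end Cone

end Groth.Agent.Sga2lef.H151.TwMod
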