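import Groth.Agent.Sga2lef.H151.TwUnit
import Groth.Agent.Sga2lef.H151.TwHom

/-!
# Factorization of graded modules through the structure sheaf

If on every chart `Γ(G, U i)` is a direct summand of a power of `Γ(O, U i)`, then a power of `x_i` on `MG D G` factors
through a power of `MG D O`.
-/

set_option autoImplicit false
universe u
open AlgebraicGeometry CategoryTheory
open Groth.Agent.VarietyB.ProjGlue
open scoped DirectSum

namespace Groth.Agent.Sga2lef.H151.TwMod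

open Groth.Agent.Pi1C Groth.Agent.Pi1C.TwistSec Groth.Agent.Pi1C.GrSec Groth.Agent.Pi1C.GrCone
open Groth.Agent.CohqB (QC2.Loc)

section Alg

open Groth.Agent.FormalA.CechSub Groth.Agent.FormalA.CechLC Groth.Agent.FormalA

variable {A : Type*} [CommRing A] {ι : Type*} {g : ι → A}
variable {M C : Type*} [AddCommGroup M] [Module A M] [AddCommGroup C] [Module A C]

/-- Uniform bound for the torsion of an endomorphism. -/
theorem uniform (hM : FormSys.Closed g M) (N : Submodule A M) (hN : N.FG)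
    (hNl : ∀ l x, ∃ k : ℕ, g l ^ k • x ∈ N) (Θ : M →ₗ[A] M) (i : ι)
    (hΘ : ∀ x, ∃ m : ℕ, g i ^ m • Θ x = 0) : ∃ m : ℕ, ∀ x, g i ^ m • Θ x = 0 := by
  obtain ⟨S, hS⟩ := hN
  choose m hm using hΘ
  let m₀ := ∑ s ∈ S, m s
  have h1 : N ≤ LinearMap.ker (g i ^ m₀ • Θ) := by
    rw [← hS, Submodule.span_le]
    intro s hs
    have hle : m s ≤ m₀ := Finset.single_le_sum (f := m) (fun _ _ => Nat.zero_le _) hs
    change (g i ^ m₀ • Θ) s = 0
    rw [LinearMap.smul_apply, ← Nat.sub_add_cancel hle, pow_add, mul_smul, hm, smul_zero]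
  refine ⟨m₀, fun x => hM.inj _ ?_⟩
  funext l
  obtain ⟨k, hk⟩ := hNl l x
  rw [ε_apply]
  refine (LocSub.mkLinearMap_eq_zero_iff _).mpr ⟨_, ⟨k, rfl⟩, ?_⟩
  have h2 := h1 hk
  change (g i ^ m₀ • Θ) (g l ^ k • x) = 0 at h2
  rw [map_smul, LinearMap.smul_apply] at h2
  exact h2

/-- A finitely generated submodule which is locally everything. -/
theorem exists_fg [Finite ι] (α : A →ₗ[A] C) (hα : FormKill.LS g α)
    (h : ∀ i, ∃ (q K : ℕ) (Φ : Fin q → M →ₗ[A] C) (Ψ : Fin q → C →ₗ[A] M),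
      ∀ x, ∃ m : ℕ, g i ^ m • g i ^ K • x = g i ^ m • ∑ j, Ψ j (Φ j x)) :
    ∃ N : Submodule A M, N.FG ∧ ∀ i x, ∃ k : ℕ, g i ^ k • x ∈ N := by
  classical
  have := Fintype.ofFinite ι
  choose q K Φ Ψ h using h
  let S : Finset M := Finset.univ.biUnion fun i => Finset.univ.image fun j => Ψ i j (α 1)
  refine ⟨Submodule.span A S, ⟨S, rfl⟩, fun i x => ?_⟩
  obtain ⟨m, hm⟩ := h i x
  choose e a ha using fun j => hα i (Φ i j x)
  let e₀ := ∑ j, e j
  refine ⟨e₀ + m + K i, ?_⟩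
  have h1 : ∀ j, g i ^ e₀ • Ψ i j (Φ i j x) ∈ Submodule.span A (S : Set M) := by
    intro j
    have hle : e j ≤ e₀ := Finset.single_le_sum (f := e) (fun _ _ => Nat.zero_le _) (Finset.mem_univ j)
    rw [← Nat.sub_add_cancel hle, pow_add, mul_smul, ← map_smul, ← ha j]
    have h2 : α (a j) = a j • α 1 := by rw [← map_smul, smul_eq_mul, mul_one]
    rw [h2, map_smul, smul_smul]
    refine Submodule.smul_mem _ _ (Submodule.subset_span ?_)
    exact Finset.mem_biUnion.mpr ⟨i, Finset.mem_univ i, Finset.mem_image.mpr ⟨j, Finset.mem_univ j, rfl⟩⟩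
  rw [pow_add, pow_add, mul_smul, mul_smul, hm, smul_comm, Finset.smul_sum]
  exact Submodule.smul_mem _ _ (Submodule.sum_mem _ fun j _ => h1 j)

end Alg

variable {X : Scheme.{u}} {r : ℕ} (D : CoordData X (Fin (r + 1))) {k : Type u} [Field k]
  (p : X ⟶ Spec (CommRingCat.of k))
  (hU : ∀ i, IsAffineOpen (D.U i)) (hb : ∀ i j, X.basicOpen (D.f i j) = D.U i ⊓ D.U j)
  (hs : ∀ i, Function.Surjective (D.hom p i))

include hU hb in
/-- Local factorization. -/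
theorem exists_fac_loc [IsLocallyNoetherian X] {G O : X.Modules} (hG : Coh.IsCoh G)
    (hO : Coh.IsCoh O) (i : Fin (r + 1)) (q : ℕ)
    (φ : Fin q → (Γ(G, D.U i) →ₗ[Γ(X, D.U i)] Γ(O, D.U i)))
    (ψ : Fin q → (Γ(O, D.U i) →ₗ[Γ(X, D.U i)] Γ(G, D.U i))) (hφψ : ∀ x, x = ∑ j, ψ j (φ j x)) :
    ∃ (K : ℕ) (Φ : Fin q → MG D G →ₗ[Cone.R D p] MG D O)
      (Ψ : Fin q → MG D O →ₗ[Cone.R D p] MG D G) (δ : Fin q → ℤ),
      (∀ j a z, cG D G a z = z → cG D O (a + δ j) (Φ j z) = Φ j z) ∧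
      ∀ z, ∃ m : ℕ, Cone.x D p i ^ m • Cone.x D p i ^ K • z =
        Cone.x D p i ^ m • ∑ j, Ψ j (Φ j z) := by
  have hGL : ∀ V : X.Opens, IsAffineOpen V → QC2.Loc G V := fun V hV =>
    have := hG.1
    CohqB.QC2.loc_of_isQuasicoherent _ hV
  choose N Φ hΦ hΦ' using fun j => exists_homR D p hU hb hG hO i (φ j)
  choose N' Ψ hΨ hΨ' using fun j => exists_homR D p hU hb hO hG i (ψ j)
  let K := ∑ j, (N j + N' j)
  have hK : ∀ j, N j + N' j ≤ K := fun j =>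
    Finset.single_le_sum (f := fun j => N j + N' j) (fun _ _ => Nat.zero_le _) (Finset.mem_univ j)
  refine ⟨K, Φ, fun j => Cone.x D p i ^ (K - (N j + N' j)) • Ψ j, fun j => N j, hΦ, fun z => ?_⟩
  refine exists_x_pow_smul_eq D p G hU hb hGL i _ _ fun b => ?_
  rw [map_sum, comp_x_pow_self_smul]
  have h1 : ∀ j, comp D G b i ((Cone.x D p i ^ (K - (N j + N' j)) • Ψ j) (Φ j z)) =
      ψ j (φ j (comp D G (b - K) i z)) := by
    intro j
    rw [LinearMap.smul_apply, comp_x_pow_self_smul, Nat.cast_sub (hK j)]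
    have h2 : b - ((K : ℤ) - ((N j + N' j : ℕ) : ℤ)) = b - K + N j + N' j := by
      push_cast
      ring
    rw [h2, hΨ', hΦ']
  rw [Finset.sum_congr rfl fun j _ => h1 j, ← hφψ]

include hU hb hs in
/-- Global factorization. -/
theorem exists_fac [IsLocallyNoetherian X] {G O : X.Modules} (hG : Coh.IsCoh G)
    (hO : Coh.IsCoh O) {m : ℕ} {one : ∀ i, Γ(O, D.U i)} (hu : UnitData D m O one)
    (hfac : ∀ i, ∃ (q : ℕ) (φ : Fin q → (Γ(G, D.U i) →ₗ[Γ(X, D.U i)] Γ(O, D.U i)))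
      (ψ : Fin q → (Γ(O, D.U i) →ₗ[Γ(X, D.U i)] Γ(G, D.U i))), ∀ x, x = ∑ j, ψ j (φ j x))
    (i : Fin (r + 1)) :
    ∃ (q K : ℕ) (Φ : Fin q → MG D G →ₗ[Cone.R D p] MG D O)
      (Ψ : Fin q → MG D O →ₗ[Cone.R D p] MG D G) (δ : Fin q → ℤ),
      (∀ j a z, cG D G a z = z → cG D O (a + δ j) (Φ j z) = Φ j z) ∧
      ∀ z, Cone.x D p i ^ K • z = ∑ j, Ψ j (Φ j z) := by
  choose q φ ψ hφψ using hfac
  choose K Φ Ψ δ hδ hz using fun i => exists_fac_loc D p hU hb hG hO i (q i) (φ i) (ψ i) (hφψ i)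
  have hGL : ∀ V : X.Opens, IsAffineOpen V → QC2.Loc G V := fun V hV =>
    have := hG.1
    CohqB.QC2.loc_of_isQuasicoherent _ hV
  obtain ⟨N, hN, hNl⟩ := exists_fg (g := Cone.x D p) (M := MG D G) (C := MG D O) (hu.map p)
    (hu.LS p hU hb hs) fun i => ⟨q i, K i, Φ i, Ψ i, hz i⟩
  obtain ⟨c, hc⟩ := uniform (closed D p G hU hb hGL) N hN hNl
    (LinearMap.lsmul (Cone.R D p) (MG D G) (Cone.x D p i ^ K i) - ∑ j, Ψ i j ∘ₗ Φ i j) i fun z => by
      obtain ⟨c, hc⟩ := hz i z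
      refine ⟨c, ?_⟩
      rw [LinearMap.sub_apply, LinearMap.lsmul_apply, LinearMap.sum_apply, smul_sub, sub_eq_zero]
      exact hc
  refine ⟨q i, c + K i, Φ i, fun j => Cone.x D p i ^ c • Ψ i j, δ i, hδ i, fun z => ?_⟩
  have h := hc z
  rw [LinearMap.sub_apply, LinearMap.lsmul_apply, LinearMap.sum_apply, smul_sub, sub_eq_zero,
    ← mul_smul, ← pow_add] at h
  rw [h, Finset.smul_sum]
  rfl

end Groth.Agent.Sga2lef.H151.TwMod
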