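import Groth.Agent.Sga2lef.H151.TwMod

/-!
# Extension of chart sections to twisted sections

`exists_gsec`: every section of a quasi-coherent module `G` on a chart extends to a twisted section.
`exists_pow_smul_eq_zero_of_apply`: a twisted section vanishing on the chart `i` is killed by a power of `x_i`.
-/

set_option autoImplicit false
universe u
open AlgebraicGeometry CategoryTheory
open Groth.Agent.VarietyB.ProjGlue
open scoped DirectSum

namespace Groth.Agent.Sga2lef.H151.TwMod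

open Groth.Agent.Pi1C Groth.Agent.Pi1C.TwistSec Groth.Agent.Pi1C.GrSec
open Groth.Agent.CohqB (QC2.Loc)

section Res

variable {X : Scheme.{u}} (G : X.Modules)

/-- Restriction of sections. -/
noncomputable def gres {V W : X.Opens} (h : V ≤ W) : Γ(G, W) →+ Γ(G, V) := CohqB.QC2.res G h

theorem gres_smul {V W : X.Opens} (h : V ≤ W) (a : Γ(X, W)) (m : Γ(G, W)) :
    gres G h (a • m) = res h a • gres G h m := CohqB.QC2.res_smul G h a m

theorem gres_gres {U V W : X.Opens} (h : U ≤ V) (h' : V ≤ W) (z : Γ(G, W)) :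
    gres G h (gres G h' z) = gres G (h.trans h') z := CohqB.QC2.res_res G h' h z

theorem gres_self {V : X.Opens} (h : V ≤ V) (z : Γ(G, V)) : gres G h z = z :=
  CohqB.QC2.res_rfl G z

theorem gres_injective_of_eq {V W : X.Opens} (h : V ≤ W) (e : W ≤ V) :
    Function.Injective (gres G h) := (CohqB.QC2.res_injective_of_eq G h (le_antisymm e h)).1

theorem exists_pow_smul_eq_zero' {V W : X.Opens} (hV : QC2.Loc G V) (g : Γ(X, V)) (z : Γ(G, V))
    (hW : W ≤ V) (hg : X.basicOpen g ≤ W) (h : gres G hW z = 0) : ∃ M : ℕ, g ^ M • z = 0 := by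
  apply hV.eq_zero g z
  change gres G (X.basicOpen_le g) z = 0
  rw [← gres_gres G hg hW, h, map_zero]

end Res

variable {X : Scheme.{u}} {I : Type} (D : CoordData X I) (G : X.Modules)

theorem gL_eq (i j : I) (z : Γ(G, D.U i)) : gL D G i j z = gres G inf_le_left z := rfl
theorem gR_eq (i j : I) (z : Γ(G, D.U j)) : gR D G i j z = gres G inf_le_right z := rfl

section affine

variable (hU : ∀ i, IsAffineOpen (D.U i)) (hb : ∀ i j, X.basicOpen (D.f i j) = D.U i ⊓ D.U j)
  (hG : ∀ V : X.Opens, IsAffineOpen V → QC2.Loc G V)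

include hU hb hG in
/-- A section on `U j` which vanishes on `U j ⊓ U i` is killed by a power of `f j i`. -/
theorem exists_pow_smul_eq_zero (i j : I) (e : Γ(G, D.U j)) (h : gL D G j i e = 0) :
    ∃ N : ℕ, D.f j i ^ N • e = 0 :=
  exists_pow_smul_eq_zero' G (hG _ (hU j)) (D.f j i) e inf_le_left (hb j i).le h

include hU hb hG in
/-- A section on `U j ⊓ U i` extends to `U j` after multiplication by a power of `f j i`. -/
theorem exists_gextend (i j : I) (e : Γ(G, D.U j ⊓ D.U i)) :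
    ∃ (N : ℕ) (e' : Γ(G, D.U j)), gL D G j i e' = resL D j i (D.f j i) ^ N • e := by
  obtain ⟨N, t, ht⟩ := (hG _ (hU j)).exists_lift (D.f j i) (gres G (hb j i).le e)
  refine ⟨N, t, ?_⟩
  apply gres_injective_of_eq G (hb j i).le (hb j i).ge
  rw [gres_smul, map_pow, gL_eq, gres_gres]
  refine ht.trans ?_
  have h1 : res (hb j i).le (resL D j i (D.f j i)) =
      CohqB.QC2.resR (X.basicOpen_le (D.f j i)) (D.f j i) := by
    change res _ (res _ _) = res _ _
    rw [res_res]
  rw [h1]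

include hU hb hG in
/-- Sections on a chart extend to twisted sections. -/
theorem exists_gsec [Finite I] (i : I) (e : Γ(G, D.U i)) :
    ∃ (N : ℕ) (σ : ∀ j, Γ(G, D.U j)), σ ∈ GSec D G N ∧ σ i = e := by
  classical
  have := Fintype.ofFinite I
  choose N e₁ h₁ using fun j => exists_gextend D G hU hb hG i j (gR D G j i e)
  let N₀ : ℕ := ∑ j, N j
  have hN₀ : ∀ j, N j ≤ N₀ := fun j => Finset.single_le_sum (fun _ _ => Nat.zero_le _) (Finset.mem_univ j)
  obtain ⟨e₂, h₂⟩ : ∃ e₂ : ∀ j, Γ(G, D.U j), ∀ j,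
      gL D G j i (e₂ j) = resL D j i (D.f j i) ^ N₀ • gR D G j i e := by
    refine ⟨fun j => D.f j i ^ (N₀ - N j) • e₁ j, fun j => ?_⟩
    rw [gL_smul, map_pow, h₁, smul_smul, ← pow_add, Nat.sub_add_cancel (hN₀ j)]
  have haff : ∀ j l, IsAffineOpen (D.U j ⊓ D.U l) := fun j l => by
    rw [← hb]; exact (hU j).basicOpen _
  have h₃ : ∀ j l, ∃ M : ℕ, (resL D j l (D.f j i)) ^ M •
      (gL D G j l (e₂ j) - resL D j l (D.f j l) ^ N₀ • gR D G j l (e₂ l)) = 0 := by
    intro j l
    have hj : D.U j ⊓ D.U l ⊓ D.U i ≤ D.U j := inf_le_left.trans inf_le_left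
    have hl : D.U j ⊓ D.U l ⊓ D.U i ≤ D.U l := inf_le_left.trans inf_le_right
    have hi : D.U j ⊓ D.U l ⊓ D.U i ≤ D.U i := inf_le_right
    have key : ∀ j' (hj' : D.U j ⊓ D.U l ⊓ D.U i ≤ D.U j'),
        gres G hj' (e₂ j') = res hj' (D.f j' i) ^ N₀ • gres G hi e := by
      intro j' hj'
      have h := congrArg (gres G (le_inf hj' hi)) (h₂ j')
      rw [gres_smul, map_pow, gL_eq, gR_eq, gres_gres, gres_gres] at h
      change _ = (res _ (res _ _)) ^ _ • _ at h
      rwa [res_res] at h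
    refine exists_pow_smul_eq_zero' G (hG _ (haff j l)) _ _
      (inf_le_left : D.U j ⊓ D.U l ⊓ D.U i ≤ D.U j ⊓ D.U l) ?_ ?_
    · refine le_inf (X.basicOpen_le _) ?_
      change X.basicOpen (X.presheaf.map _ (D.f j i)) ≤ _
      rw [Scheme.basicOpen_res, hb]
      exact inf_le_right.trans inf_le_right
    · rw [map_sub, gres_smul, map_pow, gL_eq, gR_eq, gres_gres, gres_gres]
      change _ - (res _ (res _ _)) ^ _ • _ = 0
      rw [res_res, key j hj, key l hl, res_f_mul D j l i hj hl, mul_pow, smul_smul, sub_self]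
  choose M hM using h₃
  let M₀ : ℕ := ∑ j, ∑ l, M j l
  have hM₀ : ∀ j l, M j l ≤ M₀ := fun j l =>
    (Finset.single_le_sum (f := fun l => M j l) (fun _ _ => Nat.zero_le _) (Finset.mem_univ l)).trans
      (Finset.single_le_sum (f := fun j => ∑ l, M j l) (fun _ _ => Nat.zero_le _)
        (Finset.mem_univ j))
  refine ⟨N₀ + M₀, fun j => D.f j i ^ M₀ • e₂ j, ?_, ?_⟩
  · intro j l
    have h4 : (resL D j l (D.f j i)) ^ M₀ •
      (gL D G j l (e₂ j) - resL D j l (D.f j l) ^ N₀ • gR D G j l (e₂ l)) = 0 := by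
      rw [← Nat.sub_add_cancel (hM₀ j l), pow_add, mul_smul, hM, smul_zero]
    rw [smul_sub, sub_eq_zero] at h4
    rw [gL_smul, map_pow, h4, gR_smul, map_pow, smul_smul, smul_smul]
    have h5 : ((u D j l ^ ((N₀ + M₀ : ℕ) : ℤ) : Γ(X, D.U j ⊓ D.U l)ˣ) : Γ(X, D.U j ⊓ D.U l)) =
        resL D j l (D.f j l) ^ N₀ * resL D j l (D.f j l) ^ M₀ := by
      rw [zpow_natCast, Units.val_pow_eq_pow_val, u_val, pow_add]
    have h6 : resL D j l (D.f j i) = resL D j l (D.f j l) * resR D j l (D.f l i) := D.f_mul j l i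
    rw [h5, h6, mul_pow]
    congr 1
    ring
  · have h7 := h₂ i
    rw [D.f_self, map_one, one_pow, one_smul] at h7
    have h8 : e₂ i = e := by
      have hle : D.U i ≤ D.U i ⊓ D.U i := le_inf le_rfl le_rfl
      have h := congrArg (gres G hle) h7
      rwa [gL_eq, gR_eq, gres_gres, gres_gres, gres_self, gres_self] at h
    change D.f i i ^ M₀ • e₂ i = e
    rw [D.f_self, one_pow, one_smul, h8]

include hU hb hG in
/-- A twisted section vanishing on the chart `i` is killed by a power of `x_i`. -/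
theorem exists_pow_smul_eq_zero_of_apply [Finite I] {a : ℤ} {σ : ∀ j, Γ(G, D.U j)}
    (hσ : σ ∈ GSec D G a) (i : I) (h : σ i = 0) : ∃ N : ℕ, ∀ j, D.f j i ^ N • σ j = 0 := by
  classical
  have := Fintype.ofFinite I
  have h1 : ∀ j, ∃ N : ℕ, D.f j i ^ N • σ j = 0 := by
    intro j
    refine exists_pow_smul_eq_zero D G hU hb hG i j (σ j) ?_
    rw [hσ j i, h, map_zero, smul_zero]
  choose N hN using h1
  refine ⟨∑ j, N j, fun j => ?_⟩
  have hle : N j ≤ ∑ j, N j := Finset.single_le_sum (fun _ _ => Nat.zero_le _) (Finset.mem_univ j)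
  rw [← Nat.sub_add_cancel hle, pow_add, mul_smul, hN, smul_zero]

include hU hb hG in
/-- The extension, with prescribed degree. -/
theorem exists_comp_eq [Finite I] (i : I) (e : Γ(G, D.U i)) (a : ℤ) :
    ∃ (N : ℕ) (z : MG D G), cG D G (a + N) z = z ∧ comp D G (a + N) i z = e := by
  obtain ⟨N₀, σ, hσ, rfl⟩ := exists_gsec D G hU hb hG i e
  let N : ℕ := (N₀ + a.natAbs - a).toNat
  have hN : a + (N : ℤ) = N₀ + a.natAbs := by
    change a + (((N₀ : ℤ) + a.natAbs - a).toNat : ℤ) = _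
    omega
  refine ⟨N, coord D i ^ a.natAbs • ghom D G N₀ ⟨σ, hσ⟩, ?_, ?_⟩
  · rw [cG_eq_self_iff]
    intro b j hb'
    rw [comp_coord_pow_smul, comp_ghom, if_neg (by omega), smul_zero]
  · rw [comp_coord_pow_smul, D.f_self, one_pow, one_smul, hN, add_sub_cancel_right, comp_ghom_self]

include hU hb hG in
/-- An element vanishing on the chart `i` is killed by a power of `x_i`. -/
theorem exists_pow_smul_eq_zero_of_comp [Finite I] (i : I) (z : MG D G)
    (h : ∀ a, comp D G a i z = 0) : ∃ N : ℕ, coord D i ^ N • z = 0 := by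
  classical
  obtain ⟨s, hs⟩ := exists_support D G z
  have h1 : ∀ a, ∃ N : ℕ, ∀ j, D.f j i ^ N • comp D G a j z = 0 := fun a =>
    exists_pow_smul_eq_zero_of_apply D G hU hb hG (z a).2 i (h a)
  choose N hN using h1
  refine ⟨∑ a ∈ s, N a, ?_⟩
  apply ext_comp
  intro b j
  rw [comp_coord_pow_smul, map_zero]
  by_cases ha : b - ((∑ a ∈ s, N a : ℕ) : ℤ) ∈ s
  · have hle := Finset.single_le_sum (f := N) (fun _ _ => Nat.zero_le _) ha
    rw [← Nat.sub_add_cancel hle, pow_add, mul_smul]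
    have := hN (b - ((∑ a ∈ s, N a : ℕ) : ℤ)) j
    rw [Nat.sub_add_cancel hle, this, smul_zero]
  · rw [hs _ ha j, smul_zero]

end affine

end Groth.Agent.Sga2lef.H151.TwMod
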