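import Groth.Agent.Pi1C.GrCone
import Groth.Agent.CohqB.QC2
import Mathlib.Algebra.Module.GradedModule

/-!
# The graded module of twisted sections

For `D : CoordData X I` and `G : X.Modules`, `GSec D G a` is the group of families
`e i ∈ Γ(G, U i)` with `e i = (x_j / x_i) ^ a • e j` on `U i ⊓ U j` (i.e. `H⁰(X, G(a))`), and
`MG D G = ⨁ a : ℤ, GSec D G a` is a module over the graded ring `GrSec.M D`.
-/

set_option autoImplicit false
universe u
open AlgebraicGeometry CategoryTheory
open Groth.Agent.VarietyB.ProjGlue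
open scoped DirectSum

namespace Groth.Agent.Sga2lef.H151.TwMod

open Groth.Agent.Pi1C Groth.Agent.Pi1C.TwistSec Groth.Agent.Pi1C.GrSec
open Groth.Agent.CohqB (QC2.Loc)

variable {X : Scheme.{u}} {I : Type} (D : CoordData X I) (G : X.Modules)

/-- Restriction to the left factor. -/
noncomputable def gL (i j : I) : Γ(G, D.U i) →+ Γ(G, D.U i ⊓ D.U j) :=
  CohqB.QC2.res G inf_le_left

/-- Restriction to the right factor. -/
noncomputable def gR (i j : I) : Γ(G, D.U j) →+ Γ(G, D.U i ⊓ D.U j) :=
  CohqB.QC2.res G inf_le_right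

theorem gL_smul (i j : I) (a : Γ(X, D.U i)) (m : Γ(G, D.U i)) :
    gL D G i j (a • m) = resL D i j a • gL D G i j m :=
  CohqB.QC2.res_smul G inf_le_left a m

theorem gR_smul (i j : I) (a : Γ(X, D.U j)) (m : Γ(G, D.U j)) :
    gR D G i j (a • m) = resR D i j a • gR D G i j m :=
  CohqB.QC2.res_smul G inf_le_right a m

/-- Twisted sections of degree `a` of `G`. -/
noncomputable def GSec (a : ℤ) : AddSubgroup (∀ i, Γ(G, D.U i)) where
  carrier := {e | ∀ i j, gL D G i j (e i) = ((u D i j ^ a : Γ(X, D.U i ⊓ D.U j)ˣ) :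
    Γ(X, D.U i ⊓ D.U j)) • gR D G i j (e j)}
  zero_mem' i j := by
    rw [Pi.zero_apply, Pi.zero_apply, map_zero, map_zero, smul_zero]
  add_mem' {e e'} h h' i j := by
    rw [Pi.add_apply, Pi.add_apply, map_add, map_add, h i j, h' i j, smul_add]
  neg_mem' {e} h i j := by
    rw [Pi.neg_apply, Pi.neg_apply, map_neg, map_neg, h i j, smul_neg]

theorem mem_GSec {a : ℤ} {e : ∀ i, Γ(G, D.U i)} : e ∈ GSec D G a ↔ ∀ i j,
    gL D G i j (e i) = ((u D i j ^ a : Γ(X, D.U i ⊓ D.U j)ˣ) :
      Γ(X, D.U i ⊓ D.U j)) • gR D G i j (e j) := Iff.rfl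

theorem smul_mem {a b : ℤ} {σ : ∀ i, Γ(X, D.U i)} {e : ∀ i, Γ(G, D.U i)} (h : σ ∈ Sec D a)
    (h' : e ∈ GSec D G b) : σ • e ∈ GSec D G (a + b) := by
  intro i j
  rw [Pi.smul_apply', Pi.smul_apply', gL_smul, gR_smul, h i j, h' i j, zpow_add, Units.val_mul,
    smul_smul, smul_smul]
  congr 1
  ring

instance : SetLike.GradedSMul (Sec D) (GSec D G) where
  smul_mem _ _ _ _ h h' := smul_mem D G h h'

/-- The graded module of twisted sections. -/
abbrev MG : Type u := ⨁ a : ℤ, GSec D G a

noncomputable instance : Module (GrSec.M D) (MG D G) :=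
  DirectSum.Gmodule.module (fun a => Sec D a) (fun a => GSec D G a)

/-- The homogeneous element of degree `a` defined by a twisted section. -/
noncomputable def ghom (a : ℤ) : GSec D G a →+ MG D G := DirectSum.of (fun a => GSec D G a) a

theorem hom_smul_ghom {a b : ℤ} (σ : Sec D a) (τ : GSec D G b) :
    hom D a σ • ghom D G b τ = ghom D G (a + b) ⟨σ.1 • τ.1, smul_mem D G σ.2 τ.2⟩ :=
  DirectSum.Gmodule.of_smul_of (fun a => Sec D a) (fun a => GSec D G a) σ τ

theorem ginduction_on {P : MG D G → Prop} (z : MG D G) (h0 : P 0)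
    (h1 : ∀ a (σ : GSec D G a), P (ghom D G a σ)) (h2 : ∀ z w, P z → P w → P (z + w)) : P z :=
  DirectSum.induction_on z h0 (fun a σ => h1 a σ) h2

/-- The component in degree `a` on the chart `i`. -/
noncomputable def comp (a : ℤ) (i : I) : MG D G →+ Γ(G, D.U i) where
  toFun z := (z a).1 i
  map_zero' := rfl
  map_add' _ _ := rfl

theorem comp_apply (a : ℤ) (i : I) (z : MG D G) : comp D G a i z = (z a).1 i := rfl

theorem ext_comp {z w : MG D G} (h : ∀ a i, comp D G a i z = comp D G a i w) : z = w := by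
  apply DFinsupp.ext
  intro a
  exact Subtype.ext (funext fun i => h a i)

theorem comp_ghom (a b : ℤ) (σ : GSec D G a) (i : I) :
    comp D G b i (ghom D G a σ) = if a = b then σ.1 i else 0 := by
  classical
  rw [comp_apply]
  split_ifs with h
  · subst h
    rw [ghom, DirectSum.of_eq_same]
  · rw [ghom, DirectSum.of_eq_of_ne _ _ _ (Ne.symm h)]
    rfl

theorem comp_ghom_self (a : ℤ) (σ : GSec D G a) (i : I) :
    comp D G a i (ghom D G a σ) = σ.1 i := by
  rw [comp_ghom, if_pos rfl]

theorem comp_hom_smul (a b : ℤ) (σ : Sec D a) (i : I) (z : MG D G) :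
    comp D G b i (hom D a σ • z) = σ.1 i • comp D G (b - a) i z := by
  induction z using ginduction_on with
  | h0 => rw [smul_zero, map_zero, map_zero, smul_zero]
  | h1 c τ =>
    rw [hom_smul_ghom, comp_ghom, comp_ghom]
    by_cases h : a + c = b
    · rw [if_pos h, if_pos (by omega)]
      rfl
    · rw [if_neg h, if_neg (by omega), smul_zero]
  | h2 z w hz hw => rw [smul_add, map_add, map_add, hz, hw, smul_add]

theorem comp_coord_pow_smul (n : ℕ) (b : ℤ) (i j : I) (z : MG D G) :
    comp D G b i (coord D j ^ n • z) = D.f i j ^ n • comp D G (b - n) i z := by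
  rw [coord_pow, comp_hom_smul]

theorem exists_gfinset (z : MG D G) : ∃ s : Finset ℤ, z = ∑ a ∈ s, ghom D G a (z a) := by
  classical
  exact ⟨DFinsupp.support z, (DirectSum.sum_support_of z).symm⟩

theorem exists_support (z : MG D G) : ∃ s : Finset ℤ, ∀ a ∉ s, ∀ i, comp D G a i z = 0 := by
  classical
  refine ⟨DFinsupp.support z, fun a ha i => ?_⟩
  rw [comp_apply, DFinsupp.notMem_support_iff.mp ha]
  rfl

/-- Construction of elements from their components. -/
theorem exists_of_comp (e : ∀ (_ : ℤ) (i : I), Γ(G, D.U i)) (he : ∀ a, e a ∈ GSec D G a)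
    (s : Finset ℤ) (hs : ∀ a ∉ s, e a = 0) : ∃ z : MG D G, ∀ a i, comp D G a i z = e a i := by
  classical
  refine ⟨∑ a ∈ s, ghom D G a ⟨e a, he a⟩, fun b i => ?_⟩
  rw [map_sum]
  have h1 : ∀ a ∈ s, comp D G b i (ghom D G a ⟨e a, he a⟩) = if a = b then e a i else 0 :=
    fun a _ => comp_ghom D G a b _ i
  rw [Finset.sum_congr rfl h1, Finset.sum_ite_eq']
  split_ifs with h2
  · rfl
  · rw [hs b h2]
    rfl

/-- The component of degree `a`. -/
noncomputable def cG (a : ℤ) : MG D G →+ MG D G where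
  toFun z := ghom D G a (z a)
  map_zero' := (ghom D G a).map_zero
  map_add' z w := (ghom D G a).map_add (z a) (w a)

theorem comp_cG (a b : ℤ) (i : I) (z : MG D G) :
    comp D G b i (cG D G a z) = if a = b then comp D G b i z else 0 := by
  change comp D G b i (ghom D G a (z a)) = _
  rw [comp_ghom]
  split_ifs with h
  · subst h
    rfl
  · rfl

theorem cG_ghom (a : ℤ) (σ : GSec D G a) : cG D G a (ghom D G a σ) = ghom D G a σ := by
  apply ext_comp
  intro b i
  rw [comp_cG, comp_ghom]
  split_ifs <;> rfl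

theorem exists_cG_sum (z : MG D G) : ∃ s : Finset ℤ, ∑ a ∈ s, cG D G a z = z := by
  obtain ⟨s, hs⟩ := exists_gfinset D G z
  exact ⟨s, hs.symm⟩

theorem cG_eq_self_iff (a : ℤ) (z : MG D G) :
    cG D G a z = z ↔ ∀ b i, b ≠ a → comp D G b i z = 0 := by
  constructor
  · intro h b i hb
    rw [← h, comp_cG, if_neg (Ne.symm hb)]
  · intro h
    apply ext_comp
    intro b i
    rw [comp_cG]
    split_ifs with hb
    · rfl
    · exact (h b i (Ne.symm hb)).symm

section Map

variable {G} {G' : X.Modules}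

theorem app_mem {φ : G ⟶ G'} {a : ℤ} {e : ∀ i, Γ(G, D.U i)} (h : e ∈ GSec D G a) :
    (fun i => φ.app (D.U i) (e i)) ∈ GSec D G' a := by
  intro i j
  have h1 := congrArg (φ.app (D.U i ⊓ D.U j)) (h i j)
  rw [Scheme.Modules.Hom.app_smul] at h1
  change φ.app _ (CohqB.QC2.res G _ _) = _ • φ.app _ (CohqB.QC2.res G _ _) at h1
  rw [CohqB.QC2.app_res, CohqB.QC2.app_res] at h1
  exact h1

/-- The map on twisted sections. -/
noncomputable def secMap (φ : G ⟶ G') (a : ℤ) : GSec D G a →+ GSec D G' a where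
  toFun σ := ⟨fun i => φ.app (D.U i) (σ.1 i), app_mem D σ.2⟩
  map_zero' := Subtype.ext (funext fun _ => map_zero _)
  map_add' σ τ := Subtype.ext (funext fun i => map_add _ (σ.1 i) (τ.1 i))

/-- The map on graded modules. -/
noncomputable def mapG (φ : G ⟶ G') : MG D G →+ MG D G' := DirectSum.map fun a => secMap D φ a

theorem comp_mapG (φ : G ⟶ G') (a : ℤ) (i : I) (z : MG D G) :
    comp D G' a i (mapG D φ z) = φ.app (D.U i) (comp D G a i z) := by
  rw [comp_apply, mapG, DirectSum.map_apply]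
  rfl

theorem mapG_cG (φ : G ⟶ G') (a : ℤ) (z : MG D G) :
    mapG D φ (cG D G a z) = cG D G' a (mapG D φ z) := by
  apply ext_comp
  intro b i
  rw [comp_mapG, comp_cG, comp_cG, comp_mapG]
  split_ifs
  · rfl
  · exact map_zero _

theorem mapG_hom_smul (φ : G ⟶ G') (a : ℤ) (σ : Sec D a) (z : MG D G) :
    mapG D φ (hom D a σ • z) = hom D a σ • mapG D φ z := by
  apply ext_comp
  intro b i
  rw [comp_mapG, comp_hom_smul, comp_hom_smul, comp_mapG, Scheme.Modules.Hom.app_smul]

/-- The map on graded modules is linear. -/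
noncomputable def mapLin (φ : G ⟶ G') : MG D G →ₗ[GrSec.M D] MG D G' where
  toFun := mapG D φ
  map_add' := map_add _
  map_smul' a z := by
    rw [RingHom.id_apply]
    induction a using GrSec.induction_on with
    | h0 =>
      exact (congrArg (mapG D φ) (zero_smul (GrSec.M D) z)).trans
        ((map_zero (mapG D φ)).trans (zero_smul (GrSec.M D) (mapG D φ z)).symm)
    | h1 a σ => exact mapG_hom_smul D φ a σ z
    | h2 a b ha hb =>
      exact (congrArg (mapG D φ) (add_smul a b z)).trans
        ((map_add (mapG D φ) _ _).trans ((congrArg₂ (· + ·) ha hb).trans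
          (add_smul a b (mapG D φ z)).symm))

end Map

section Cone

variable {X : Scheme.{u}} {r : ℕ} (D : CoordData X (Fin (r + 1))) {k : Type u} [Field k]
  (p : X ⟶ Spec (CommRingCat.of k)) (G : X.Modules)

noncomputable instance instCone : Module (Cone.R D p) (MG D G) :=
  Module.compHom _ (GrCone.toM D p)

theorem cone_smul (a : Cone.R D p) (z : MG D G) : a • z = GrCone.toM D p a • z := rfl

theorem x_smul (j : Fin (r + 1)) (z : MG D G) : Cone.x D p j • z = coord D j • z := by
  rw [cone_smul, GrCone.toM_x]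

theorem x_pow_smul (j : Fin (r + 1)) (n : ℕ) (z : MG D G) :
    Cone.x D p j ^ n • z = coord D j ^ n • z := by
  rw [cone_smul, map_pow, GrCone.toM_x]

theorem comp_x_pow_smul (n : ℕ) (b : ℤ) (i j : Fin (r + 1)) (z : MG D G) :
    comp D G b i (Cone.x D p j ^ n • z) = D.f i j ^ n • comp D G (b - n) i z := by
  rw [x_pow_smul, comp_coord_pow_smul]

theorem comp_x_smul (b : ℤ) (i j : Fin (r + 1)) (z : MG D G) :
    comp D G b i (Cone.x D p j • z) = D.f i j • comp D G (b - 1) i z := by
  have h := comp_x_pow_smul D p G 1 b i j z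
  rw [pow_one, pow_one, Nat.cast_one] at h
  exact h

/-- The map on graded modules over the cone ring. -/
noncomputable def mapR {G G' : X.Modules} (φ : G ⟶ G') : MG D G →ₗ[Cone.R D p] MG D G' where
  toFun := mapG D φ
  map_add' := map_add _
  map_smul' a z := (mapLin D φ).map_smul (GrCone.toM D p a) z

theorem comp_mapR {G G' : X.Modules} (φ : G ⟶ G') (a : ℤ) (i : Fin (r + 1)) (z : MG D G) :
    comp D G' a i (mapR D p φ z) = φ.app (D.U i) (comp D G a i z) := comp_mapG D φ a i z

end Cone

end Groth.Agent.Sga2lef.H151.TwMod
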