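import Groth.Agent.Sga2lef.H151.TwClosed
import Groth.Agent.Pi1C.GrModSys

/-!
# Systems of graded modules of twisted sections

`exists_of_chart`: the localization of `MG D G` at `x_i` is `Γ(G, U i)[T, T⁻¹]`; `modSys`: the system `MG D (G n)` for a
sequence of modules which is locally a `x_0`-adic system.
-/

set_option autoImplicit false
universe u
open AlgebraicGeometry CategoryTheory
open Groth.Agent.VarietyB.ProjGlue
open scoped DirectSum

namespace Groth.Agent.Sga2lef.H151.TwMod

open Groth.Agent.Pi1C Groth.Agent.Pi1C.TwistSec Groth.Agent.Pi1C.GrSec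
open Groth.Agent.CohqB (QC2.Loc)

section

variable {X : Scheme.{u}} {I : Type} (D : CoordData X I) (G : X.Modules)
  (hU : ∀ i, IsAffineOpen (D.U i)) (hb : ∀ i j, X.basicOpen (D.f i j) = D.U i ⊓ D.U j)
  (hG : ∀ V : X.Opens, IsAffineOpen V → QC2.Loc G V)

include hU hb hG in
/-- Families of sections on a chart extend. -/
theorem exists_of_chart [Finite I] (i : I) (e : ℤ → Γ(G, D.U i)) (s : Finset ℤ)
    (hs : ∀ a ∉ s, e a = 0) : ∃ (N : ℕ) (z : MG D G), ∀ a, comp D G (a + N) i z = e a := by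
  classical
  choose N z hz hz' using fun a => exists_comp_eq D G hU hb hG i (e a) a
  let N₀ : ℕ := ∑ a ∈ s, N a
  refine ⟨N₀, ∑ a ∈ s, coord D i ^ (N₀ - N a) • z a, fun b => ?_⟩
  rw [map_sum]
  have h1 : ∀ a ∈ s, comp D G (b + N₀) i (coord D i ^ (N₀ - N a) • z a) =
      if a = b then e a else 0 := by
    intro a ha
    have hle : N a ≤ N₀ := Finset.single_le_sum (f := N) (fun _ _ => Nat.zero_le _) ha
    rw [comp_coord_pow_smul, D.f_self, one_pow, one_smul, Nat.cast_sub hle]
    have h2 : b + (N₀ : ℤ) - (N₀ - N a) = b + N a := by ring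
    rw [h2]
    split_ifs with hab
    · subst hab
      exact hz' a
    · exact (cG_eq_self_iff D G (a + N a) (z a)).mp (hz a) _ i (fun h => hab (by omega))
  rw [Finset.sum_congr rfl h1, Finset.sum_ite_eq']
  split_ifs with h2
  · rfl
  · exact (hs b h2).symm

end

section Cone

variable {X : Scheme.{u}} {r : ℕ} (D : CoordData X (Fin (r + 1))) {k : Type u} [Field k]
  (p : X ⟶ Spec (CommRingCat.of k)) (G : X.Modules)
  (hU : ∀ i, IsAffineOpen (D.U i)) (hb : ∀ i j, X.basicOpen (D.f i j) = D.U i ⊓ D.U j)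
  (hG : ∀ V : X.Opens, IsAffineOpen V → QC2.Loc G V)

include hU hb hG in
/-- Division by a power of `x_0`, checked on a chart. -/
theorem exists_div_x_zero (i : Fin (r + 1)) (m : ℕ) (x : MG D G)
    (h : ∀ a, ∃ e, comp D G a i x = D.f i 0 ^ m • e) :
    ∃ (N : ℕ) (y : MG D G), Cone.x D p i ^ N • x = Cone.x D p 0 ^ m • y := by
  classical
  obtain ⟨s, hs⟩ := exists_support D G x
  have h' : ∀ a, ∃ e, comp D G a i x = D.f i 0 ^ m • e ∧ (a ∉ s → e = 0) := by
    intro a
    by_cases ha : a ∈ s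
    · obtain ⟨e, he⟩ := h a
      exact ⟨e, he, fun h => absurd ha h⟩
    · exact ⟨0, by rw [hs a ha, smul_zero], fun _ => rfl⟩
  choose e he he' using h'
  obtain ⟨N, y, hy⟩ := exists_of_chart D G hU hb hG i (fun a => e (a + m))
    (s.image fun c => c - (m : ℤ)) (by
      intro a ha
      apply he'
      intro hmem
      exact ha (Finset.mem_image.mpr ⟨_, hmem, by ring⟩))
  obtain ⟨K, hK⟩ := exists_x_pow_smul_eq D p G hU hb hG i (Cone.x D p i ^ N • x)
    (Cone.x D p 0 ^ m • y) (by
      intro b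
      rw [comp_x_pow_self_smul, comp_x_pow_smul, he]
      have h3 := hy (b - m - N)
      rw [sub_add_cancel] at h3
      rw [h3]
      have h4 : b - (m : ℤ) - N + m = b - N := by ring
      rw [h4])
  refine ⟨K + N, Cone.x D p i ^ K • y, ?_⟩
  rw [pow_add, mul_smul, hK, smul_comm]

variable {G} in
include hU hb hG in
/-- Lifting along a map which is surjective on the chart `i`. -/
theorem exists_lift_mapR {G' : X.Modules} (hG' : ∀ V : X.Opens, IsAffineOpen V → QC2.Loc G' V)
    (φ : G ⟶ G') (i : Fin (r + 1)) (hφ : Function.Surjective (φ.app (D.U i))) (x : MG D G') :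
    ∃ (N : ℕ) (y : MG D G), mapR D p φ y = Cone.x D p i ^ N • x := by
  classical
  obtain ⟨s, hs⟩ := exists_support D G' x
  have h' : ∀ a, ∃ e, φ.app (D.U i) e = comp D G' a i x ∧ (a ∉ s → e = 0) := by
    intro a
    by_cases ha : a ∈ s
    · obtain ⟨e, he⟩ := hφ (comp D G' a i x)
      exact ⟨e, he, fun h => absurd ha h⟩
    · exact ⟨0, by rw [hs a ha, map_zero], fun _ => rfl⟩
  choose e he he' using h'
  obtain ⟨N, y, hy⟩ := exists_of_chart D G hU hb hG i e s he'
  obtain ⟨K, hK⟩ := exists_x_pow_smul_eq D p G' hU hb hG' i (mapR D p φ y)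
    (Cone.x D p i ^ N • x) (by
      intro b
      rw [comp_mapR, comp_x_pow_self_smul]
      have h3 := hy (b - N)
      rw [sub_add_cancel] at h3
      rw [h3, he])
  refine ⟨K + N, Cone.x D p i ^ K • y, ?_⟩
  rw [map_smul, hK, pow_add, mul_smul]

/-- A sequence of modules which is locally a `x_0`-adic system. -/
structure LocSys (G : ℕ → X.Modules) (t : ∀ n, G (n + 1) ⟶ G n) : Prop where
  loc : ∀ n (V : X.Opens), IsAffineOpen V → QC2.Loc (G n) V
  tors : ∀ n i (e : Γ(G n, D.U i)), D.f i 0 ^ (n + 1) • e = 0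
  surj : ∀ n i, Function.Surjective ((t n).app (D.U i))
  ker : ∀ n i (e : Γ(G (n + 1), D.U i)), (t n).app (D.U i) e = 0 → ∃ e', e = D.f i 0 ^ (n + 1) • e'
  ftors : ∀ n i (e : Γ(G n, D.U i)), D.f i 0 • e = 0 → ∃ e', e = D.f i 0 ^ n • e'

include hU hb in
theorem modSys {G : ℕ → X.Modules} {t : ∀ n, G (n + 1) ⟶ G n} (S : LocSys D G t) :
    FormSys.ModSys (Cone.x D p 0) (Cone.x D p) (fun n => MG D (G n)) (fun n => mapR D p (t n)) where
  tors n x := by
    apply ext_comp
    intro b i
    rw [comp_x_pow_smul, S.tors, map_zero]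
  lift n i x := exists_lift_mapR D p hU hb (S.loc _) (S.loc _) (t n) i (S.surj n i) x
  ker n i x hx := by
    refine exists_div_x_zero D p (G (n + 1)) hU hb (S.loc _) i (n + 1) x fun a => ?_
    apply S.ker
    rw [← comp_mapR D p, hx, map_zero]
  ftors n i x hx := by
    refine exists_div_x_zero D p (G n) hU hb (S.loc _) i n x fun a => ?_
    apply S.ftors
    have h := congrArg (comp D (G n) (a + 1) i) hx
    rw [comp_x_smul, add_sub_cancel_right, map_zero] at h
    exact h
  closed n := closed D p (G n) hU hb (S.loc n)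

end Cone

end Groth.Agent.Sga2lef.H151.TwMod
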