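import Groth.Agent.Sga2lef.H151.TwSys
import Groth.Agent.Sga2lef.H151.TwGr

/-!
# The graded module of a quotient of the structure sheaf

`UnitData D m O one`: `O` is generated on the charts by the compatible sections `one i` with annihilator
`(x_0 / x_i) ^ m`. `unitMap : Cone.R D p → MG D O` is locally surjective with kernel locally generated by `x_0 ^ m`.
-/

set_option autoImplicit false
universe u
open AlgebraicGeometry CategoryTheory
open Groth.Agent.VarietyB.ProjGlue
open scoped DirectSum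

namespace Groth.Agent.Sga2lef.H151.TwMod

open Groth.Agent.Pi1C Groth.Agent.Pi1C.TwistSec Groth.Agent.Pi1C.GrSec Groth.Agent.Pi1C.GrCone
open Groth.Agent.CohqB (QC2.Loc)

variable {X : Scheme.{u}} {r : ℕ} (D : CoordData X (Fin (r + 1))) {k : Type u} [Field k]
  (p : X ⟶ Spec (CommRingCat.of k))

theorem comp_smul_ghom (G : X.Modules) (z : GrSec.M D) (a b : ℤ) (i : Fin (r + 1)) (σ : GSec D G a) :
    comp D G b i (z • ghom D G a σ) = (z (b - a)).1 i • σ.1 i := by
  induction z using GrSec.induction_on with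
  | h0 =>
    refine (congrArg (comp D G b i) (zero_smul (GrSec.M D) (ghom D G a σ))).trans ?_
    exact (map_zero _).trans (zero_smul Γ(X, D.U i) (σ.1 i)).symm
  | h1 c τ =>
    rw [comp_hom_smul, comp_ghom, hom_apply]
    by_cases h : a = b - c
    · rw [if_pos h, if_pos (by omega)]
    · rw [if_neg h, if_neg (by omega), smul_zero, zero_smul]
  | h2 z w hz hw =>
    refine (congrArg (comp D G b i) (add_smul z w (ghom D G a σ))).trans ?_
    refine (map_add _ _ _).trans ((congrArg₂ (· + ·) hz hw).trans ?_)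
    exact (add_smul ((z (b - a)).1 i) ((w (b - a)).1 i) (σ.1 i)).symm

/-- `O` is generated on the charts by the sections `one i`, with annihilator `f i 0 ^ m`. -/
structure UnitData (m : ℕ) (O : X.Modules) (one : ∀ i, Γ(O, D.U i)) : Prop where
  loc : ∀ V : X.Opens, IsAffineOpen V → QC2.Loc O V
  mem : one ∈ GSec D O 0
  gen : ∀ i (e : Γ(O, D.U i)), ∃ a : Γ(X, D.U i), a • one i = e
  ann : ∀ i (a : Γ(X, D.U i)), a • one i = 0 → ∃ b, a = D.f i 0 ^ m * b
  tors : ∀ i, D.f i 0 ^ m • one i = 0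

variable {D} {m : ℕ} {O : X.Modules} {one : ∀ i, Γ(O, D.U i)} (h : UnitData D m O one)

/-- The unit. -/
noncomputable def UnitData.unit : MG D O := ghom D O 0 ⟨one, h.mem⟩

/-- The map from the cone ring. -/
noncomputable def UnitData.map : Cone.R D p →ₗ[Cone.R D p] MG D O :=
  LinearMap.toSpanSingleton (Cone.R D p) (MG D O) h.unit

theorem UnitData.comp_map (a : Cone.R D p) (b : ℤ) (i : Fin (r + 1)) :
    comp D O b i (h.map p a) = (toM D p a b).1 i • one i := by
  rw [map, LinearMap.toSpanSingleton_apply, cone_smul, unit, comp_smul_ghom, sub_zero]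

theorem UnitData.map_cA (e : ℤ) (a : Cone.R D p) : h.map p (cA D p e a) = cG D O e (h.map p a) := by
  apply ext_comp
  intro b i
  rw [h.comp_map, comp_cG, h.comp_map, toM_cA, cM_apply]
  split_ifs
  · rfl
  · rw [zero_smul]

include h in
theorem UnitData.tors_all (z : MG D O) : Cone.x D p 0 ^ m • z = 0 := by
  apply ext_comp
  intro b i
  obtain ⟨a, ha⟩ := h.gen i (comp D O (b - m) i z)
  rw [comp_x_pow_smul, ← ha, smul_comm, h.tors, smul_zero, map_zero]

include h in
theorem UnitData.tors_sec (i : Fin (r + 1)) (e : Γ(O, D.U i)) : D.f i 0 ^ m • e = 0 := by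
  obtain ⟨a, rfl⟩ := h.gen i e
  rw [smul_comm, h.tors, smul_zero]

variable (hU : ∀ i, IsAffineOpen (D.U i)) (hb : ∀ i j, X.basicOpen (D.f i j) = D.U i ⊓ D.U j)
  (hs : ∀ i, Function.Surjective (D.hom p i))

include hU hb hs in
theorem UnitData.LS : FormKill.LS (Cone.x D p) (h.map p) := by
  classical
  intro i x
  obtain ⟨s, hs'⟩ := exists_support D O x
  choose e he using fun a => h.gen i (comp D O a i x)
  obtain ⟨w, hw⟩ := GrModSys.exists_lc s e
  obtain ⟨N, a, ha⟩ := Cone.chart_surj D p hs i w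
  obtain ⟨K, hK⟩ := exists_x_pow_smul_eq D p O hU hb h.loc i (h.map p a) (Cone.x D p i ^ N • x) (by
    intro b
    rw [h.comp_map, comp_x_pow_self_smul, ← lc_chart, chart_toM, ← ha, lc_mul_T, hw]
    split_ifs with hmem
    · exact he _
    · rw [zero_smul, hs' _ hmem])
  refine ⟨K + N, Cone.x D p i ^ K • a, ?_⟩
  rw [map_smul, hK, pow_add, mul_smul]

include hU hb hs in
theorem UnitData.LK : FormKill.LK (Cone.x D p) (h.map p) (Cone.x D p 0 ^ m) := by
  intro i a ha
  have h1 : ∀ d, ∃ e, lc _ d (Cone.chart D p i a) = D.f i 0 ^ m * e := by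
    intro d
    apply h.ann
    rw [← chart_toM, lc_chart, ← h.comp_map p, ha, map_zero]
  obtain ⟨z, hz⟩ := GrModSys.exists_div _ _ h1
  have hx : Cone.chart D p i (Cone.x D p 0 ^ m) =
      LaurentPolynomial.C (D.f i 0 ^ m) * LaurentPolynomial.T (m : ℤ) := by
    rw [map_pow, Cone.chart_x, mul_pow, ← map_pow, LaurentPolynomial.T_pow, mul_one, mul_comm]
  obtain ⟨K, y, hy⟩ := GrModSys.loc_div (Cone.isLocAway_chart D p hU hb hs i) (Cone.x D p 0 ^ m) a
    ⟨LaurentPolynomial.T (-(m : ℤ)) * z, by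
      rw [hz, hx, mul_assoc, ← mul_assoc (LaurentPolynomial.T (m : ℤ)),
        ← LaurentPolynomial.T_add, add_neg_cancel, LaurentPolynomial.T_zero, one_mul]⟩
  exact ⟨K, y, by rw [smul_eq_mul, smul_eq_mul, hy]⟩

end Groth.Agent.Sga2lef.H151.TwMod
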